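import Cfsg.Agent.Lib.ToddCox.HeO.OrbD
set_option autoImplicit false
set_option maxRecDepth 100000
namespace Cfsg.Agent.Lib.ToddCox.HeO
open Cfsg.Agent.Lib.ToddCox.He2058 in
theorem lv0_0 : allBits (fun k => bif Nat.blt k 2058 then chkOrbPos Cfsg.Agent.Lib.ToddCox.He2058.tab L 0 0 2058 2058 (fun q => orbR (Nat.add 0 q)) k else true) 11 0 = true := by decide +kernel
theorem lv0_1 : allBits (fun k => bif Nat.blt k 2058 then chkOrbPos Cfsg.Agent.Lib.ToddCox.He2058.tab L 0 0 2058 2058 (fun q => orbR (Nat.add 0 q)) k else true) 11 2048 = true := by decide +kernel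
theorem fx0 : ∀ w ∈ L.drop 7, tabW Cfsg.Agent.Lib.ToddCox.He2058.tab w 0 = 0 := by decide +kernel
theorem lv1_0 : allBits (fun k => bif Nat.blt k 1360 then chkOrbPos Cfsg.Agent.Lib.ToddCox.He2058.tab L 7 1 1360 2058 (fun q => orbR (Nat.add 2058 q)) k else true) 11 0 = true := by decide +kernel
theorem fx1 : ∀ w ∈ L.drop 14, tabW Cfsg.Agent.Lib.ToddCox.He2058.tab w 1 = 1 := by decide +kernel
theorem lv2_0 : allBits (fun k => bif Nat.blt k 360 then chkOrbPos Cfsg.Agent.Lib.ToddCox.He2058.tab L 14 29 360 2058 (fun q => orbR (Nat.add 3418 q)) k else true) 11 0 = true := by decide +kernel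
theorem fx2 : ∀ w ∈ L.drop 20, tabW Cfsg.Agent.Lib.ToddCox.He2058.tab w 29 = 29 := by decide +kernel
theorem lv3_0 : allBits (fun k => bif Nat.blt k 4 then chkOrbPos Cfsg.Agent.Lib.ToddCox.He2058.tab L 20 11 4 2058 (fun q => orbR (Nat.add 3778 q)) k else true) 11 0 = true := by decide +kernel
theorem fx3 : ∀ w ∈ L.drop 22, tabW Cfsg.Agent.Lib.ToddCox.He2058.tab w 11 = 11 := by decide +kernel
end Cfsg.Agent.Lib.ToddCox.HeO
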